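import Mathlib
import Cfsg.Agent.SolvableStructure.Supersolvable
import Cfsg.Agent.LocalP.StrongClosedFixedOrder
import Cfsg.Agent.PGroup.Aut

/-!
# Normal `p`-subgroups reached by cyclic chief steps

If the `p'`-elements of `D`, where `G/D` is abelian of exponent dividing `p - 1`, centralize the normal
`p`-subgroup `Q`, then `Q` has a series with cyclic factors that is normal in `G`. This applies when all
subgroups of one order `p^b` of `Q` (and of order `4` if `p^b = 2`) are normal in `G`.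
-/

set_option autoImplicit false

open scoped Pointwise commutatorElement

namespace CfsgLib.Supersolvable

universe u

/-- A linear map over `ZMod p` killed by `X^(p-1) - 1` on `x ≠ 0` has an eigenvector. -/
theorem exists_eigenvector_of_pow_fix {p : ℕ} [hp : Fact p.Prime] {V : Type*} [AddCommGroup V]
    [Module (ZMod p) V] (f : V →ₗ[ZMod p] V) {x : V} (hx : x ≠ 0) (hf : (f ^ (p - 1)) x = x) :
    ∃ (a : ZMod p) (y : V), y ≠ 0 ∧ f y = a • y := by
  classical
  set y : (ZMod p)ˣ → V := fun a => ∑ j ∈ Finset.range (p - 1), ((a : ZMod p) ^ j) • (f ^ j) x with hy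
  by_contra hcon
  have hy0 : ∀ a : (ZMod p)ˣ, y a = 0 := by
    intro a
    by_contra hne
    refine hcon ⟨((a⁻¹ : (ZMod p)ˣ) : ZMod p), y a, hne, ?_⟩
    set F : ℕ → V := fun j => ((a : ZMod p) ^ j) • (f ^ j) x with hF
    have hper : F (p - 1) = F 0 := by
      rw [hF]
      simp only [pow_zero, one_smul]
      rw [hf, ← Units.val_pow_eq_pow_val, ZMod.units_pow_card_sub_one_eq_one, Units.val_one, one_smul]
      rfl
    have hstep : ∀ j, f (F j) = ((a⁻¹ : (ZMod p)ˣ) : ZMod p) • F (j + 1) := by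
      intro j
      rw [hF]
      simp only [map_smul, smul_smul, pow_succ' (a : ZMod p), ← mul_assoc, Units.inv_mul, one_mul]
      rw [pow_succ' f, Module.End.mul_apply]
    have hshift : ∑ j ∈ Finset.range (p - 1), F (j + 1) = ∑ j ∈ Finset.range (p - 1), F j := by
      have h1 := (Finset.sum_range_succ' F (p - 1)).symm.trans (Finset.sum_range_succ F (p - 1))
      rw [hper] at h1
      exact add_right_cancel h1
    calc f (y a) = ∑ j ∈ Finset.range (p - 1), f (F j) := map_sum f F _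
      _ = ((a⁻¹ : (ZMod p)ˣ) : ZMod p) • ∑ j ∈ Finset.range (p - 1), F (j + 1) := by
            rw [Finset.smul_sum]; exact Finset.sum_congr rfl fun j _ => hstep j
      _ = _ := by rw [hshift]
  have hsum : ∑ a : (ZMod p)ˣ, y a = -x := by
    rw [hy, Finset.sum_comm]
    simp only [← Finset.sum_smul, FiniteField.sum_pow_units, ZMod.card]
    rw [Finset.sum_eq_single_of_mem 0 (Finset.mem_range.2 (by have := hp.out.two_le; omega))]
    · simp
    · intro j hj hj0
      rw [Finset.mem_range] at hj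
      rw [if_neg (fun h => hj0 (Nat.eq_zero_of_dvd_of_lt h hj)), zero_smul]
  rw [Finset.sum_eq_zero fun a _ => hy0 a] at hsum
  exact hx (neg_eq_zero.1 hsum.symm)

theorem exists_eigenvector_iterate {p : ℕ} [hp : Fact p.Prime] {V : Type*} [AddCommGroup V]
    (hV : ∀ v : V, p • v = 0) (f : V →+ V) {x : V} (hx : x ≠ 0) (hf : f^[p - 1] x = x) :
    ∃ (a : ℕ) (y : V), y ≠ 0 ∧ f y = a • y := by
  letI : Module (ZMod p) V := AddCommGroup.zmodModule hV
  obtain ⟨a, y, hy0, hy⟩ := exists_eigenvector_of_pow_fix (f.toZModLinearMap p) hx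
    (by rw [Module.End.pow_apply]; exact hf)
  refine ⟨a.val, y, hy0, ?_⟩
  rw [← Nat.cast_smul_eq_nsmul (ZMod p), ZMod.natCast_zmod_val]
  exact hy

variable {G : Type u} [Group G] [Finite G] {p : ℕ} [hp : Fact p.Prime]

/-- An element of `G` whose `(p-1)`-th power fixes an elementary abelian invariant subgroup has an
eigenvector there. -/
theorem exists_conj_eq_pow (W : Subgroup G) (hWc : ∀ a ∈ W, ∀ b ∈ W, a * b = b * a)
    (hWp : ∀ a ∈ W, a ^ p = 1) (hW : W ≠ ⊥) (g : G) (hg : ∀ w ∈ W, g * w * g⁻¹ ∈ W)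
    (hge : ∀ w ∈ W, g ^ (p - 1) * w * (g ^ (p - 1))⁻¹ = w) :
    ∃ (a : ℕ) (y : G), y ∈ W ∧ y ≠ 1 ∧ g * y * g⁻¹ = y ^ a := by
  letI : CommGroup W := { (inferInstance : Group W) with mul_comm := fun a b => Subtype.ext (hWc a a.2 b b.2) }
  let σ : W →* W :=
    { toFun := fun w => ⟨g * (w : G) * g⁻¹, hg w w.2⟩
      map_one' := by ext; simp
      map_mul' := fun a b => by ext; simp [mul_assoc] }
  obtain ⟨x₀, hx₀, hx₁⟩ : ∃ x ∈ W, x ≠ (1 : G) := by
    by_contra h
    push Not at h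
    exact hW ((Subgroup.eq_bot_iff_forall W).2 h)
  have hiter : ∀ (j : ℕ) (v : Additive W), ((Additive.toMul ((MonoidHom.toAdditive σ)^[j] v) : W) : G) =
      g ^ j * (Additive.toMul v : W) * (g ^ j)⁻¹ := by
    intro j
    induction j with
    | zero => intro v; simp
    | succ j ih =>
      intro v
      rw [Function.iterate_succ_apply']
      change g * ((Additive.toMul ((MonoidHom.toAdditive σ)^[j] v) : W) : G) * g⁻¹ = _
      rw [ih v, pow_succ' g]
      group
  obtain ⟨a, y, hy0, h1⟩ := exists_eigenvector_iterate (p := p) (V := Additive W)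
    (fun v => Additive.toMul.injective (Subtype.ext (hWp _ (Additive.toMul v).2)))
    (MonoidHom.toAdditive σ) (x := Additive.ofMul (⟨x₀, hx₀⟩ : W))
    (by
      intro h
      exact hx₁ (congrArg (fun v : Additive W => ((Additive.toMul v : W) : G)) h))
    (by
      apply Additive.toMul.injective
      apply Subtype.ext
      rw [hiter]
      exact hge x₀ hx₀)
  refine ⟨a, (Additive.toMul y : W), (Additive.toMul y).2, ?_, ?_⟩
  · intro h
    exact hy0 (Additive.toMul.injective (Subtype.ext h))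
  · exact congrArg (fun v : Additive W => ((Additive.toMul v : W) : G)) h1

/-- A non-trivial elementary abelian normal subgroup fixed by `D` contains a normal cyclic subgroup. -/
theorem exists_normal_zpowers_mem (D : Subgroup G) (hab : ∀ g h : G, ⁅g, h⁆ ∈ D)
    (hexp : ∀ g : G, g ^ (p - 1) ∈ D) :
    ∀ (m : ℕ) (W : Subgroup G), Nat.card W = m → W.Normal → W ≠ ⊥ →
      (∀ a ∈ W, ∀ b ∈ W, a * b = b * a) → (∀ a ∈ W, a ^ p = 1) →
      (∀ d ∈ D, ∀ w ∈ W, d * w * d⁻¹ = w) →
      ∃ y ∈ W, y ≠ 1 ∧ (Subgroup.zpowers y).Normal := by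
  intro m
  induction m using Nat.strong_induction_on with
  | h m ih =>
  intro W hm hWn hWb hWc hWp hWD
  by_cases hscal : ∀ g : G, ∃ a : ℕ, ∀ w ∈ W, g * w * g⁻¹ = w ^ a
  · obtain ⟨y, hy, hy1⟩ : ∃ y ∈ W, y ≠ (1 : G) := by
      by_contra h
      push Not at h
      exact hWb ((Subgroup.eq_bot_iff_forall W).2 h)
    refine ⟨y, hy, hy1, ⟨fun z hz g => ?_⟩⟩
    obtain ⟨k, rfl⟩ := Subgroup.mem_zpowers_iff.1 hz
    obtain ⟨a, ha⟩ := hscal g
    rw [← conj_zpow, ha y hy]
    exact zpow_mem (pow_mem (Subgroup.mem_zpowers y) a) k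
  · push Not at hscal
    obtain ⟨g, hg⟩ := hscal
    obtain ⟨a, y, hyW, hy1, hy⟩ := exists_conj_eq_pow W hWc hWp hWb g
      (fun w hw => hWn.conj_mem w hw g) (fun w hw => hWD _ (hexp g) w hw)
    let E : Subgroup G :=
      { carrier := {w | w ∈ W ∧ g * w * g⁻¹ = w ^ a}
        one_mem' := ⟨one_mem _, by simp⟩
        mul_mem' := fun {u v} hu hv => ⟨mul_mem hu.1 hv.1, by
          have hcuv : Commute u v := hWc u hu.1 v hv.1
          rw [hcuv.mul_pow, ← hu.2, ← hv.2]
          group⟩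
        inv_mem' := fun {u} hu => ⟨inv_mem hu.1, by
          rw [inv_pow, ← hu.2]
          group⟩ }
    have hEn : E.Normal := by
      refine ⟨fun w hw h => ⟨hWn.conj_mem w hw.1 h, ?_⟩⟩
      have h1 := hWD _ (hab g h) _ (hWn.conj_mem _ (pow_mem hw.1 a) h)
      calc g * (h * w * h⁻¹) * g⁻¹ = ⁅g, h⁆ * (h * (g * w * g⁻¹) * h⁻¹) * ⁅g, h⁆⁻¹ := by
            simp only [commutatorElement_def]; group
        _ = (h * w * h⁻¹) ^ a := by rw [hw.2, h1, conj_pow]
    have hElt : Nat.card E < m := by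
      subst hm
      refine (Nat.le_of_dvd Nat.card_pos (Subgroup.card_dvd_of_le (fun w hw => hw.1 : E ≤ W))).lt_of_ne fun h => ?_
      obtain ⟨w, hw, hwg⟩ := hg a
      have hEW : E = W := Subgroup.eq_of_le_of_card_ge (fun v (hv : v ∈ E) => hv.1) h.ge
      have hwE : w ∈ E := hEW.symm ▸ hw
      exact hwg hwE.2
    obtain ⟨z, hz, hz1, hzn⟩ := ih _ hElt E rfl hEn
      (fun h => hy1 (Subgroup.mem_bot.1 (h ▸ (⟨hyW, hy⟩ : y ∈ E))))
      (fun u hu v hv => hWc u hu.1 v hv.1) (fun u hu => hWp u hu.1) (fun d hd u hu => hWD d hd u hu.1)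
    exact ⟨z, hz.1, hz1, hzn⟩

/-- A non-trivial normal `p`-subgroup whose automorphisms induced by `D` form a `p`-group contains a
normal cyclic subgroup. -/
theorem exists_normal_zpowers (D : Subgroup G) [hDn : D.Normal] (hab : ∀ g h : G, ⁅g, h⁆ ∈ D)
    (hexp : ∀ g : G, g ^ (p - 1) ∈ D) {Q : Subgroup G} [hQn : Q.Normal] (hQ : IsPGroup p Q) (hQb : Q ≠ ⊥)
    (hpow : ∀ d ∈ D, ∃ k : ℕ, ∀ q ∈ Q, d ^ p ^ k * q * (d ^ p ^ k)⁻¹ = q) :
    ∃ y ∈ Q, y ≠ 1 ∧ (Subgroup.zpowers y).Normal := by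
  haveI : Nontrivial Q := (Subgroup.nontrivial_iff_ne_bot Q).mpr hQb
  have hZnt : Nontrivial (Subgroup.center Q) := hQ.center_nontrivial
  set Z : Subgroup G := (Subgroup.center Q).map Q.subtype with hZ
  have hZQ : Z ≤ Q := Subgroup.map_subtype_le _
  haveI : Z.Normal := by rw [hZ]; infer_instance
  set φ : D →* MulAut Z := MulAut.conjNormal.comp D.subtype with hφ
  have hR : IsPGroup p φ.range := by
    rintro ⟨_, d, rfl⟩
    obtain ⟨k, hk⟩ := hpow d d.2
    refine ⟨k, Subtype.ext ?_⟩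
    rw [SubmonoidClass.coe_pow, OneMemClass.coe_one, ← map_pow]
    ext z
    rw [MonoidHom.comp_apply, MulAut.conjNormal_apply, MulAut.one_apply]
    exact hk z (hZQ z.2)
  have hdvd : p ∣ Nat.card Z := by
    obtain ⟨k, hk⟩ := (hQ.to_le hZQ).exists_card_eq
    rw [hk]
    refine dvd_pow_self p ?_
    rintro rfl
    rw [pow_zero, hZ, Subgroup.card_map_of_injective Subtype.val_injective] at hk
    exact (Finite.one_lt_card (α := Subgroup.center Q)).ne' hk
  have h1fix : (1 : Z) ∈ MulAction.fixedPoints φ.range Z := by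
    intro σ
    exact map_one (σ : MulAut Z)
  obtain ⟨z, hzfix, hz1⟩ := hR.exists_fixed_point_of_prime_dvd_card_of_fixed_point Z hdvd h1fix
  have hzc : ∀ u ∈ Z, ∀ v ∈ Z, u * v = v * u := by
    rintro u hu v ⟨v', hv', rfl⟩
    obtain ⟨u', -, rfl⟩ := hu
    exact congrArg Subtype.val (Subgroup.mem_center_iff.1 hv' u')
  let W : Subgroup G :=
    { carrier := {w | w ∈ Z ∧ w ^ p = 1 ∧ ∀ d ∈ D, d * w * d⁻¹ = w}
      one_mem' := ⟨one_mem _, one_pow p, fun d _ => by group⟩
      mul_mem' := fun {u v} hu hv => ⟨mul_mem hu.1 hv.1, by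
        have hcuv : Commute u v := hzc u hu.1 v hv.1
        rw [hcuv.mul_pow, hu.2.1, hv.2.1, one_mul], fun d hd => by
        calc d * (u * v) * d⁻¹ = (d * u * d⁻¹) * (d * v * d⁻¹) := by group
          _ = u * v := by rw [hu.2.2 d hd, hv.2.2 d hd]⟩
      inv_mem' := fun {u} hu => ⟨inv_mem hu.1, by rw [inv_pow, hu.2.1, inv_one], fun d hd => by
        calc d * u⁻¹ * d⁻¹ = (d * u * d⁻¹)⁻¹ := by group
          _ = u⁻¹ := by rw [hu.2.2 d hd]⟩ }
  have hWn : W.Normal := by
    refine ⟨fun w hw g => ⟨Subgroup.Normal.conj_mem inferInstance w hw.1 g, by rw [conj_pow, hw.2.1]; group,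
      fun d hd => ?_⟩⟩
    have h1 := hw.2.2 _ (hDn.conj_mem d hd g⁻¹)
    calc d * (g * w * g⁻¹) * d⁻¹ = g * ((g⁻¹ * d * g⁻¹⁻¹) * w * (g⁻¹ * d * g⁻¹⁻¹)⁻¹) * g⁻¹ := by group
      _ = g * w * g⁻¹ := by rw [h1]
  obtain ⟨t, ht⟩ := IsPGroup.iff_orderOf.1 (hQ.to_le hZQ) z
  have ht0 : t ≠ 0 := by
    rintro rfl
    rw [pow_zero, orderOf_eq_one_iff] at ht
    exact hz1 ht.symm
  have hwp : ((z : G) ^ p ^ (t - 1)) ^ p = 1 := by
    rw [← pow_mul, ← pow_succ, Nat.sub_add_cancel (Nat.pos_of_ne_zero ht0), ← ht,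
      ← Subgroup.orderOf_coe, pow_orderOf_eq_one]
  have hw1 : (z : G) ^ p ^ (t - 1) ≠ 1 := by
    intro h
    have h1 := orderOf_dvd_of_pow_eq_one h
    rw [Subgroup.orderOf_coe, ht] at h1
    have := (Nat.pow_dvd_pow_iff_le_right hp.out.one_lt).1 h1
    omega
  have hwW : (z : G) ^ p ^ (t - 1) ∈ W := by
    refine ⟨pow_mem z.2 _, hwp, fun d hd => ?_⟩
    rw [← conj_pow]
    congr 1
    have h1 := congrArg Subtype.val (hzfix ⟨φ ⟨d, hd⟩, ⟨_, rfl⟩⟩)
    simpa [hφ] using h1
  obtain ⟨y, hy, hy1, hyn⟩ := exists_normal_zpowers_mem D hab hexp _ W rfl hWn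
    (fun h => hw1 (Subgroup.mem_bot.1 (h ▸ hwW)))
    (fun u hu v hv => hzc u hu.1 v hv.1) (fun u hu => hu.2.1) (fun d hd u hu => hu.2.2 d hd)
  exact ⟨y, hZQ hy.1, hy1, hyn⟩

/-- The criterion. -/
theorem cycReach_of_centralizes (D : Subgroup G) [hDn : D.Normal] (hab : ∀ g h : G, ⁅g, h⁆ ∈ D)
    (hexp : ∀ g : G, g ^ (p - 1) ∈ D) (Q : Subgroup G) [hQn : Q.Normal] (hQ : IsPGroup p Q)
    (hcent : ∀ n ∈ D, (orderOf n).Coprime p → ∀ q ∈ Q, n * q * n⁻¹ = q) : CycReach Q := by
  suffices key : ∀ (m : ℕ) (A : Subgroup G), CycReach A → A ≤ Q → A.index = m → CycReach Q from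
    key _ ⊥ CycReach.bot bot_le rfl
  intro m
  induction m using Nat.strong_induction_on with
  | h m ih =>
  intro A hA hAQ hm
  by_cases heq : Q ≤ A
  · exact le_antisymm hAQ heq ▸ hA
  haveI := hA.normal
  set π := QuotientGroup.mk' A with hπ
  have hsurj : Function.Surjective π := QuotientGroup.mk'_surjective A
  haveI hQb : (Q.map π).Normal := hQn.map π hsurj
  haveI hDb : (D.map π).Normal := hDn.map π hsurj
  obtain ⟨y, hy, hy1, hyn⟩ := exists_normal_zpowers (p := p) (D.map π)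
    (fun g h => by
      obtain ⟨g, rfl⟩ := hsurj g
      obtain ⟨h, rfl⟩ := hsurj h
      exact ⟨_, hab g h, map_commutatorElement π g h⟩)
    (fun g => by
      obtain ⟨g, rfl⟩ := hsurj g
      exact ⟨_, hexp g, map_pow π g _⟩)
    (Q := Q.map π) (hQ.map π)
    (fun h => heq (by rwa [Subgroup.map_eq_bot_iff, hπ, QuotientGroup.ker_mk'] at h))
    (by
      rintro _ ⟨d, hd, rfl⟩
      obtain ⟨k, hk⟩ : ∃ k, (orderOf (d ^ p ^ k)).Coprime p := by
        refine ⟨(orderOf d).factorization p, ?_⟩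
        rw [orderOf_pow_of_dvd (pow_ne_zero _ hp.out.ne_zero) (Nat.ordProj_dvd _ _)]
        exact (Nat.coprime_ordCompl hp.out (orderOf_pos d).ne').symm
      refine ⟨k, ?_⟩
      rintro _ ⟨q, hq, rfl⟩
      rw [← map_pow, ← map_inv, ← map_mul, ← map_mul, hcent _ (pow_mem hd _) hk q hq])
  obtain ⟨x, hx, rfl⟩ := hy
  have hcom : (Subgroup.zpowers (π x)).comap π = A ⊔ Subgroup.zpowers x := by
    rw [← MonoidHom.map_zpowers, Subgroup.comap_map_eq, hπ, QuotientGroup.ker_mk', sup_comm]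
  have hn : (A ⊔ Subgroup.zpowers x).Normal := hcom ▸ hyn.comap π
  have hlt : (A ⊔ Subgroup.zpowers x).index < m := by
    subst hm
    refine Subgroup.index_strictAnti (lt_of_le_of_ne le_sup_left fun h => hy1 ?_)
    rw [hπ, QuotientGroup.mk'_apply, QuotientGroup.eq_one_iff, h]
    exact Subgroup.mem_sup_right (Subgroup.mem_zpowers x)
  exact ih _ hlt _ (CycReach.step A x hA hn) (sup_le hAQ (Subgroup.zpowers_le.2 hx)) rfl

/-- The subgroup generated by commutators and `(p-1)`-th powers. -/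
def expResidual (G : Type u) [Group G] (p : ℕ) : Subgroup G :=
  commutator G ⊔ Subgroup.closure (Set.range fun g : G => g ^ (p - 1))

omit [Finite G] hp in
theorem commutatorElement_mem_expResidual (g h : G) : ⁅g, h⁆ ∈ expResidual G p :=
  Subgroup.mem_sup_left (Subgroup.commutator_mem_commutator (Subgroup.mem_top g) (Subgroup.mem_top h))

omit [Finite G] hp in
theorem pow_mem_expResidual (g : G) : g ^ (p - 1) ∈ expResidual G p :=
  Subgroup.mem_sup_right (Subgroup.subset_closure ⟨g, rfl⟩)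

omit [Finite G] hp in
theorem expResidual_normal : (expResidual G p).Normal := by
  refine ⟨fun x hx g => ?_⟩
  have h : g * x * g⁻¹ = ⁅g, x⁆ * x := by rw [commutatorElement_def]; group
  rw [h]
  exact mul_mem (commutatorElement_mem_expResidual g x) hx

/-- A `p'`-element of the exponent residual fixes every normal cyclic `p`-subgroup of an image. -/
theorem fix_of_mem_expResidual {H : Type u} [Group H] [Finite H] (f : G →* H) (hf : Function.Surjective f)
    {e : H} (he : (Subgroup.zpowers e).Normal) {s : ℕ} (hs : orderOf e = p ^ s)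
    {n : G} (hn : n ∈ expResidual G p) (hc : (orderOf n).Coprime p) : f n * e * (f n)⁻¹ = e := by
  haveI := he
  set C := Subgroup.zpowers e with hC
  let ψ : G →* (ZMod (Nat.card C))ˣ :=
    (IsCyclic.mulAutMulEquiv C).toMonoidHom.comp ((MulAut.conjNormal (H := C)).comp f)
  let S : Subgroup G :=
    { carrier := {g | ∃ k : ℕ, ψ g ^ p ^ k = 1}
      one_mem' := ⟨0, by simp⟩
      mul_mem' := fun {a b} ⟨k, hk⟩ ⟨l, hl⟩ => ⟨k + l, by
        rw [map_mul, mul_pow]
        have h1 : ψ a ^ p ^ (k + l) = 1 := by rw [pow_add, pow_mul, hk, one_pow]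
        have h2 : ψ b ^ p ^ (k + l) = 1 := by rw [pow_add, mul_comm, pow_mul, hl, one_pow]
        rw [h1, h2, one_mul]⟩
      inv_mem' := fun {a} ⟨k, hk⟩ => ⟨k, by rw [map_inv, inv_pow, hk, inv_one]⟩ }
  have hle : expResidual G p ≤ S := by
    refine sup_le ?_ ((Subgroup.closure_le _).2 ?_)
    · intro x hx
      exact ⟨0, by rw [pow_zero, pow_one]; exact Abelianization.commutator_subset_ker ψ hx⟩
    · rintro _ ⟨g, rfl⟩
      rcases Nat.eq_zero_or_pos s with rfl | hs0
      · refine ⟨0, ?_⟩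
        have h1 : (Nat.card C).totient = 1 := by
          rw [hC, Nat.card_zpowers, hs, pow_zero, Nat.totient_one]
        have h2 := ZMod.pow_totient (ψ g)
        rw [h1, pow_one] at h2
        rw [pow_zero, pow_one, map_pow, h2, one_pow]
      · refine ⟨s - 1, ?_⟩
        have h2 := ZMod.pow_totient (ψ g)
        have h1 : (Nat.card C).totient = p ^ (s - 1) * (p - 1) := by
          rw [hC, Nat.card_zpowers, hs, Nat.totient_prime_pow hp.out hs0]
        rw [h1, mul_comm, pow_mul] at h2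
        rw [map_pow]
        exact h2
  obtain ⟨k, hk⟩ := hle hn
  have hψ : ψ n = 1 := by
    have h1 : orderOf (ψ n) ∣ p ^ k := orderOf_dvd_of_pow_eq_one hk
    have h2 : orderOf (ψ n) ∣ orderOf n := orderOf_map_dvd ψ n
    exact orderOf_eq_one_iff.1 (Nat.eq_one_of_dvd_coprimes (hc.pow_right k) h2 h1)
  have hα : MulAut.conjNormal (H := C) (f n) = 1 := by
    apply (IsCyclic.mulAutMulEquiv C).injective
    rw [map_one]
    exact hψ
  have := congrArg (fun α : MulAut C => ((α ⟨e, Subgroup.mem_zpowers e⟩ : C) : H)) hα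
  simpa using this

/-- All subgroups of order `p^b` normal gives a chain with cyclic steps. -/
theorem cycReach_of_normal_subgroups_of_order (Q : Subgroup G) [hQn : Q.Normal] (hQ : IsPGroup p Q)
    {b : ℕ} (hb : 1 ≤ b) (hbQ : p ^ b < Nat.card Q)
    (h : ∀ F : Subgroup G, F ≤ Q → (Nat.card F = p ^ b ∨ (p ^ b = 2 ∧ Nat.card F = 4)) → F.Normal) :
    CycReach Q := by
  haveI := expResidual_normal (G := G) (p := p)
  refine cycReach_of_centralizes (expResidual G p) commutatorElement_mem_expResidual pow_mem_expResidual Q hQ ?_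
  intro n hn hnc q hq
  have hnQ : n ∈ Subgroup.normalizer (Q : Set G) := by
    rw [Subgroup.normalizer_eq_top]; exact Subgroup.mem_top n
  suffices hcent : n ∈ Subgroup.centralizer (Q : Set G) by
    rw [← Subgroup.mem_centralizer_iff.1 hcent q hq]; group
  refine CfsgLib.Transfer.mem_centralizer_of_fixes_small hQ hnQ hnc fun a ha hsmall => ?_
  suffices hfix : n * a * n⁻¹ = a by rwa [mul_inv_eq_iff_eq_mul] at hfix
  by_cases ha1 : a = 1
  · simp [ha1]
  obtain ⟨c, hc⟩ := IsPGroup.iff_orderOf.1 hQ ⟨a, ha⟩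
  rw [Subgroup.orderOf_mk] at hc
  have hcyc : ∀ f : G, (Subgroup.zpowers f).Normal → ∀ t, orderOf f = p ^ t → n * f * n⁻¹ = f :=
    fun f hf t ht => fix_of_mem_expResidual (MonoidHom.id G) Function.surjective_id hf ht hn hnc
  by_cases hdirect : Nat.card (Subgroup.zpowers a) = p ^ b ∨ (p ^ b = 2 ∧ Nat.card (Subgroup.zpowers a) = 4)
  · exact hcyc a (h _ (Subgroup.zpowers_le.2 ha) hdirect) c hc
  have hcb : c ≤ b := by
    rcases hsmall with hs | ⟨rfl, hs⟩
    · have hd := orderOf_dvd_of_pow_eq_one hs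
      rw [hc] at hd
      have := (Nat.pow_dvd_pow_iff_le_right hp.out.one_lt).1 (show p ^ c ∣ p ^ 1 by rwa [pow_one])
      omega
    · have hd := orderOf_dvd_of_pow_eq_one hs
      rw [hc] at hd
      have := (Nat.pow_dvd_pow_iff_le_right (by norm_num)).1 (show 2 ^ c ∣ 2 ^ 2 from hd)
      by_contra hlt
      obtain rfl : b = 1 := by omega
      obtain rfl : c = 2 := by omega
      exact hdirect (Or.inr ⟨by norm_num, by rw [Nat.card_zpowers, hc]; norm_num⟩)
  -- `⟨a⟩ ≤ F ≤ R` of orders `p^b`, `p^(b+1)`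
  obtain ⟨s, hs⟩ := hQ.exists_card_eq
  have hbs : b < s := (Nat.pow_lt_pow_iff_right hp.out.one_lt).1 (hs ▸ hbQ)
  obtain ⟨F₀, hF₀, haF⟩ := Sylow.exists_subgroup_card_pow_prime_le p (hs ▸ pow_dvd_pow p hbs.le)
    (Subgroup.zpowers (⟨a, ha⟩ : Q)) (by rw [Nat.card_zpowers, Subgroup.orderOf_mk, hc]) hcb
  obtain ⟨R₀, hR₀, hFR⟩ := Sylow.exists_subgroup_card_pow_prime_le p (hs ▸ pow_dvd_pow p hbs)
    F₀ hF₀ (Nat.le_succ b)
  set F : Subgroup G := F₀.map Q.subtype with hFdef
  set R : Subgroup G := R₀.map Q.subtype with hRdef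
  have hFcard : Nat.card F = p ^ b := by
    rw [hFdef, Subgroup.card_map_of_injective Subtype.val_injective, hF₀]
  have hRcard : Nat.card R = p ^ (b + 1) := by
    rw [hRdef, Subgroup.card_map_of_injective Subtype.val_injective, hR₀]
  have haF' : a ∈ F := ⟨⟨a, ha⟩, haF (Subgroup.mem_zpowers _), rfl⟩
  have hFQ : F ≤ Q := Subgroup.map_subtype_le _
  have hRQ : R ≤ Q := Subgroup.map_subtype_le _
  have hFn : F.Normal := h F hFQ (Or.inl hFcard)
  have hFR' : F ≤ R := Subgroup.map_mono hFR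
  by_cases hFc : IsCyclic F
  · obtain ⟨e, he⟩ := (Subgroup.isCyclic_iff_exists_zpowers_eq_top F).1 hFc
    have heF : e ∈ F := he ▸ Subgroup.mem_zpowers e
    have hef := hcyc e (he ▸ hFn) b (by rw [← Nat.card_zpowers, he, hFcard])
    obtain ⟨k, rfl⟩ := Subgroup.mem_zpowers_iff.1 (he ▸ haF')
    rw [← conj_zpow, hef]
  have hRp : IsPGroup p R := hQ.to_le hRQ
  have hRnc : ¬ IsCyclic R := fun hR => hFc (Subgroup.isCyclic_of_le hFR')
  have hcoat : ∀ M : Subgroup R, IsCoatom M →
      Nat.card (M.map R.subtype) = p ^ b ∧ (M.map R.subtype).Normal := by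
    intro M hM
    have h1 := M.card_mul_index
    rw [CfsgLib.PGroup.index_of_coatom hRp hM, hRcard, pow_succ] at h1
    have h2 := Nat.eq_of_mul_eq_mul_right hp.out.pos h1
    rw [← Subgroup.card_map_of_injective (f := R.subtype) Subtype.val_injective] at h2
    exact ⟨h2, h _ ((Subgroup.map_subtype_le _).trans hRQ) (Or.inl h2)⟩
  have hRn : R.Normal := by
    obtain ⟨M, hM, hMF⟩ : ∃ M : Subgroup R, IsCoatom M ∧ ¬ M.map R.subtype ≤ F := by
      by_contra hno
      push Not at hno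
      refine hRnc (CfsgLib.PGroup.isCyclic_of_frattini_index (p := p) ?_)
      have hsub : F.subgroupOf R ≤ frattini R := fun x hx => CfsgLib.PGroup.mem_frattini_iff.2 fun M hM => by
        have heq : M.map R.subtype = F :=
          Subgroup.eq_of_le_of_card_ge (hno M hM) (by rw [hFcard, (hcoat M hM).1])
        obtain ⟨y, hy, hyx⟩ := heq.symm ▸ (Subgroup.mem_subgroupOf.1 hx)
        rwa [← Subtype.ext hyx]
      refine (Subgroup.index_dvd_of_le hsub).trans (dvd_of_eq ?_)
      have h1 := (F.subgroupOf R).card_mul_index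
      rw [Nat.card_congr (Subgroup.subgroupOfEquivOfLe hFR').toEquiv, hFcard, hRcard, pow_succ] at h1
      exact Nat.eq_of_mul_eq_mul_left (pow_pos hp.out.pos b) h1
    haveI := hFn
    haveI := (hcoat M hM).2
    have hsup : F ⊔ M.map R.subtype = R := by
      refine Subgroup.eq_of_le_of_card_ge (sup_le hFR' (Subgroup.map_subtype_le _)) ?_
      have h1 : F < F ⊔ M.map R.subtype :=
        lt_of_le_of_ne le_sup_left fun heq => hMF (heq ▸ le_sup_right)
      obtain ⟨r, hr⟩ := (hQ.to_le (sup_le hFQ ((Subgroup.map_subtype_le _).trans hRQ))).exists_card_eq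
      have h2 : b < r := by
        have h3 : Nat.card F < Nat.card ↥(F ⊔ M.map R.subtype) := by
          refine lt_of_le_of_ne (Subgroup.card_le_of_le le_sup_left) fun he => ?_
          exact h1.ne (Subgroup.eq_of_le_of_card_ge le_sup_left he.ge)
        rw [hFcard, hr] at h3
        exact (Nat.pow_lt_pow_iff_right hp.out.one_lt).1 h3
      rw [hRcard, hr]
      exact Nat.pow_le_pow_right hp.out.pos h2
    rw [← hsup]
    infer_instance
  haveI := hRn
  set σ : MulAut R := MulAut.conjNormal n with hσ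
  have hσ1 : σ = 1 := by
    refine CfsgLib.PGroup.aut_eq_one_of_trivial_frattini hRp
      (hnc.coprime_dvd_left (orderOf_map_dvd MulAut.conjNormal n)) fun x => ?_
    refine CfsgLib.PGroup.mem_frattini_iff.2 fun M hM => ?_
    obtain ⟨hMc, hMn⟩ := hcoat M hM
    haveI := hMn
    set N := M.map R.subtype with hN
    set π := QuotientGroup.mk' N with hπ
    by_cases hxM : x ∈ M
    · refine mul_mem ?_ (inv_mem hxM)
      obtain ⟨y, hy, hyx⟩ := hMn.conj_mem _ (Subgroup.mem_map_of_mem R.subtype hxM) n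
      have : σ x = y := Subtype.ext (by rw [hσ, MulAut.conjNormal_apply]; exact hyx.symm)
      rwa [this]
    have hMx : M ⊔ Subgroup.zpowers x = ⊤ := hM.2 _ (lt_of_le_of_ne le_sup_left fun he => hxM (by
      rw [he]; exact Subgroup.mem_sup_right (Subgroup.mem_zpowers x)))
    have hRmap : R.map π = Subgroup.zpowers (π x) := by
      have h1 := congrArg (Subgroup.map (π.comp R.subtype)) hMx
      rw [← MonoidHom.range_eq_map, MonoidHom.range_comp, Subgroup.range_subtype, Subgroup.map_sup,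
        ← Subgroup.map_map, MonoidHom.map_zpowers, hπ, QuotientGroup.map_mk'_self, bot_sup_eq] at h1
      exact h1.symm
    obtain ⟨t, ht⟩ := IsPGroup.iff_orderOf.1 (hRp.map π) ⟨π x, Subgroup.mem_map_of_mem π x.2⟩
    rw [Subgroup.orderOf_mk] at ht
    have hfix := fix_of_mem_expResidual π (QuotientGroup.mk'_surjective N)
      (e := π x) (hRmap ▸ hRn.map π (QuotientGroup.mk'_surjective N)) ht hn hnc
    rw [← map_inv, ← map_mul, ← map_mul, ← mul_inv_eq_one, ← map_inv, ← map_mul, hπ,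
      QuotientGroup.mk'_apply, QuotientGroup.eq_one_iff] at hfix
    obtain ⟨y, hy, hye⟩ := hfix
    have : σ x * x⁻¹ = y := Subtype.ext (by
      push_cast
      rw [hσ, MulAut.conjNormal_apply]
      exact hye.symm)
    rwa [this]
  have h5 := congrArg (fun α : MulAut R => ((α ⟨a, hFR' haF'⟩ : R) : G)) hσ1
  simpa [hσ] using h5

end CfsgLib.Supersolvable
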